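import Cfsg.Agent.H89.McLDat
import Cfsg.Agent.MLin.Chain

/-! # McL: involutions, abstract part (helper89) -/

set_option autoImplicit false
set_option maxRecDepth 100000

namespace Cfsg.Agent.H89.McLC

open Cfsg.Agent Cfsg.Agent.PermTab Cfsg.Agent.MLin Cfsg.Agent.MLin.McL Cfsg.Agent.CosetEnum Subgroup

/-- tables of the letters -/
def tb : ℕ → ℕ := tfm gt gi idt 6

/-- the table of the involution -/
def tt : ℕ := gt 4

/-- sum -/
noncomputable def nsm (f : ℕ → ℕ) (k : ℕ) : ℕ := @Nat.rec (fun _ => ℕ) 0 (fun i ih => Nat.add (f i) ih) k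

theorem nsm_eq (f : ℕ → ℕ) (k : ℕ) : nsm f k = ∑ i ∈ Finset.range k, f i := by
  induction k with
  | zero => rfl
  | succ k ih =>
    rw [Finset.sum_range_succ, ← ih]
    show f k + nsm f k = _
    omega

/-- adjacency of codes -/
noncomputable def adc (c c' : ℕ) : Bool :=
  Nat.beq (Nat.add (nsm (fun j => Nat.mul (tget 4 c j) (tget 4 c' j)) 24) 1536)
    (Nat.add (Nat.mul 8 (Nat.add (nsm (fun j => tget 4 c j) 24) (nsm (fun j => tget 4 c' j) 24))) 8)

/-- adjacency of points -/
noncomputable def ad (i j : ℕ) : Bool := adc (tget 96 cd i) (tget 96 cd j)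

/-- equality of bits -/
def beqb (a b : Bool) : Bool := cond a b (!b)

theorem beqb_iff {a b : Bool} : beqb a b = true ↔ a = b := by cases a <;> cases b <;> decide

/-- bit -/
def tbit (m x : ℕ) : Bool := Nat.beq (Nat.mod (Nat.shiftRight m x) 2) 1

/-- the letters act on the 275 points -/
structure MC {G : Type*} [Group G] (g : ℕ → G) (ρ : G →* Equiv.Perm (Fin 275)) : Prop where
  act : ∀ x i, ((ρ (g x) i : Fin 275) : ℕ) = tget 9 (tb x) i
  fr : ∀ a, (∀ i : Fin 275, (i : ℕ) < 22 → ρ a i = i) → a = 1
  inv : ∀ a i j, ad (ρ a i : Fin 275) (ρ a j : Fin 275) = ad i j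
  card : Nat.card G = 898128000

/-- value of a word -/
def wd {G : Type*} [Group G] (g : ℕ → G) (u : List ℕ) : G := (u.map g).prod

variable {G : Type*} [Group G] {g : ℕ → G} {ρ : G →* Equiv.Perm (Fin 275)}

theorem wd_cons (x : ℕ) (u : List ℕ) : wd g (x :: u) = g x * wd g u := by
  unfold wd; rw [List.map_cons, List.prod_cons]

theorem wd_append (u v : List ℕ) : wd g (u ++ v) = wd g u * wd g v := by
  unfold wd; rw [List.map_append, List.prod_append]

theorem MC.word (M : MC g ρ) (u : List ℕ) (i : Fin 275) :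
    ((ρ (wd g u) i : Fin 275) : ℕ) = wact 9 tb u i := by
  induction u with
  | nil => simp [wd, wact_nil]
  | cons x u ih => rw [wd_cons, map_mul, Equiv.Perm.mul_apply, M.act, ih, wact_cons]

theorem MC.ext (M : MC g ρ) {a b : G} (h : ∀ i : Fin 275, (i : ℕ) < 22 → ρ a i = ρ b i) : a = b := by
  have h1 : b⁻¹ * a = 1 := by
    apply M.fr
    intro i hi
    rw [map_mul, Equiv.Perm.mul_apply, h i hi, ← Equiv.Perm.mul_apply, ← map_mul, inv_mul_cancel]
    simp
  exact (inv_mul_eq_one.1 h1).symm

/-- equality of words on the frame -/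
noncomputable def eqW (u v : List ℕ) : Bool := nall (fun c => Nat.beq (wact 9 tb u c) (wact 9 tb v c)) 22

theorem MC.eqw (M : MC g ρ) {u v : List ℕ} (h : eqW u v = true) : wd g u = wd g v := by
  apply M.ext
  intro i hi
  apply Fin.ext
  rw [M.word, M.word]
  exact Nat.eq_of_beq_eq_true ((nall_iff _ _).1 h i hi)

/-! ### the relations -/

/-- word of `a i` -/
def awd (i : ℕ) : List ℕ := aw.getD i []

theorem rel1 : eqW [9, 9] [] = true := by decide +kernel

theorem rel2 : nall (fun i => eqW (9 :: awd i) (awd i ++ [9])) 6 = true := by decide +kernel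

theorem rel3 : nall (fun i => eqW (awd i ++ (awd i ++ awd i)) []) 6 = true := by decide +kernel

theorem rel4 : nall (fun i => nall (fun j => Bool.or (Nat.beq i j)
    (eqW (awd i ++ (awd j ++ (awd i ++ awd j))) [9])) 6) 6 = true := by decide +kernel

theorem MC.tsq (M : MC g ρ) : g 9 * g 9 = 1 := by
  have := M.eqw rel1
  simpa [wd] using this

theorem moved : Nat.beq (tget 9 (tb 9) 1) 1 = false := by decide +kernel

theorem MC.tne (M : MC g ρ) : g 9 ≠ 1 := by
  intro h
  have h1 := M.act 9 ⟨1, by norm_num⟩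
  rw [h, map_one] at h1
  have h2 := moved
  have h3 : tget 9 (tb 9) 1 = 1 := h1.symm
  rw [h3] at h2
  exact absurd h2 (by decide)

/-! ### the chain of stabilizers -/

/-- candidates -/
def cand (prev : List ℕ) (b x : ℕ) : Bool :=
  Bool.and (beqb (tbit tF x) (tbit tF b)) (Bool.and (beqb (tbit tA x) (tbit tA b))
    (lall prev (fun c => Bool.and (beqb (tbit (rw c) x) (tbit (rw c) b))
      (Bool.and (beqb (tbit (rw c) (tget 9 tt x)) (tbit (rw c) (tget 9 tt b)))
        (Bool.and (!Nat.beq x c) (!Nat.beq x (tget 9 tt c)))))))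

/-- check of the chain -/
def chk : List (ℕ × List ℕ) → List ℕ → Bool
  | [], prev => nall (fun i => prev.any (fun c => Bool.or (Nat.beq i c) (Nat.beq i (tget 9 tt c)))) 22
  | (b, C) :: L, prev => Bool.and (cand prev b b)
      (Bool.and (nall (fun x => Bool.or (!cand prev b x) (C.contains x)) 275) (chk L (b :: prev)))

/-- product of the lengths -/
def plen : List (ℕ × List ℕ) → ℕ
  | [] => 1
  | (_, C) :: L => C.length * plen L

theorem chk_ok : chk bas [] = true := by decide +kernel

theorem plen_bas : plen bas = 80640 := by decide +kernel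

theorem bas_lt : bas.all (fun p => Nat.blt p.1 275) = true := by decide +kernel

/-- the row of a point is correct -/
noncomputable def rowB (c : ℕ) : Bool := nall (fun x => beqb (tbit (rw c) x) (ad x c)) 275

theorem rows_ok : lall bas (fun p => rowB p.1) = true := by decide +kernel

theorem tF_ok : nall (fun x => beqb (tbit tF x) (Nat.beq (tget 9 tt x) x)) 275 = true := by decide +kernel

theorem tA_ok : nall (fun x => beqb (tbit tA x) (ad x (tget 9 tt x))) 275 = true := by decide +kernel

theorem tt_eq : tb 9 = tt := by decide +kernel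

/-- elements commuting with the involution and fixing points -/
def KK (g : ℕ → G) (ρ : G →* Equiv.Perm (Fin 275)) (prev : List ℕ) : Subgroup G where
  carrier := {a | g 9 * a = a * g 9 ∧ ∀ c : Fin 275, (c : ℕ) ∈ prev → ρ a c = c}
  one_mem' := ⟨by rw [one_mul, mul_one], fun c _ => by rw [map_one]; rfl⟩
  mul_mem' := by
    rintro a b ⟨h1, h2⟩ ⟨h3, h4⟩
    refine ⟨by rw [← mul_assoc, h1, mul_assoc, h3, mul_assoc], fun c hc => ?_⟩
    rw [map_mul, Equiv.Perm.mul_apply, h4 c hc, h2 c hc]
  inv_mem' := by
    rintro a ⟨h1, h2⟩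
    refine ⟨?_, fun c hc => ?_⟩
    · have h3 : Commute (g 9) a := h1
      exact h3.inv_right
    · rw [map_inv, Equiv.Perm.inv_eq_iff_eq, h2 c hc]

theorem mem_KK {prev : List ℕ} {a : G} : a ∈ KK g ρ prev ↔
    g 9 * a = a * g 9 ∧ ∀ c : Fin 275, (c : ℕ) ∈ prev → ρ a c = c := Iff.rfl

theorem card_le_map [Finite G] (K K' : Subgroup G) (C : List ℕ) (f : G → ℕ) (hf : ∀ a ∈ K, f a ∈ C)
    (hK : ∀ a ∈ K, ∀ b ∈ K, f a = f b → a⁻¹ * b ∈ K') : Nat.card K ≤ C.length * Nat.card K' := by
  classical
  let R : ℕ → G := fun v => if h : ∃ a ∈ K, f a = v then h.choose else 1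
  have hR : ∀ a ∈ K, R (f a) ∈ K ∧ f (R (f a)) = f a := by
    intro a ha
    have h : ∃ b ∈ K, f b = f a := ⟨a, ha, rfl⟩
    have e : R (f a) = h.choose := dif_pos h
    rw [e]
    exact h.choose_spec
  let F : K → {v // v ∈ C.toFinset} × K' := fun a =>
    (⟨f a, List.mem_toFinset.2 (hf a a.2)⟩, ⟨(R (f a))⁻¹ * a, hK _ (hR a a.2).1 _ a.2 (hR a a.2).2⟩)
  have hF : Function.Injective F := by
    intro a b hab
    have h1 : f a = f b := congrArg (fun p => (p.1 : ℕ)) hab
    have h2 : (R (f a))⁻¹ * (a : G) = (R (f b))⁻¹ * (b : G) := congrArg (fun p => (p.2 : G)) hab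
    rw [h1] at h2
    exact Subtype.ext (mul_left_cancel h2)
  have h1 := Nat.card_le_card_of_injective F hF
  rw [Nat.card_prod] at h1
  refine h1.trans (Nat.mul_le_mul_right _ ?_)
  rw [Nat.card_eq_fintype_card, Fintype.card_coe]
  exact List.toFinset_card_le C

theorem MC.tact (M : MC g ρ) (i : Fin 275) : ((ρ (g 9) i : Fin 275) : ℕ) = tget 9 tt i := by
  rw [M.act, tt_eq]

theorem chain [Finite G] (M : MC g ρ) : ∀ (L : List (ℕ × List ℕ)) (prev : List ℕ),
    (∀ p ∈ L, p.1 < 275 ∧ rowB p.1 = true) → (∀ c ∈ prev, c < 275 ∧ rowB c = true) →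
    chk L prev = true → Nat.card (KK g ρ prev) ≤ plen L := by
  intro L
  induction L with
  | nil =>
    intro prev _ hp h
    have h1 : KK g ρ prev = ⊥ := by
      rw [eq_bot_iff]
      rintro a ⟨h2, h3⟩
      rw [mem_bot]
      apply M.fr
      intro i hi
      have h4 := (nall_iff _ _).1 h i hi
      obtain ⟨c, hc, h5⟩ := List.any_eq_true.1 h4
      rw [Bool.or_eq_true] at h5
      have h6 := h3 ⟨c, (hp c hc).1⟩ hc
      rcases h5 with h5 | h5
      · have : i = ⟨c, (hp c hc).1⟩ := Fin.ext (Nat.eq_of_beq_eq_true h5)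
        rw [this]; exact h6
      · have : i = ρ (g 9) ⟨c, (hp c hc).1⟩ := by
          apply Fin.ext
          rw [M.tact]
          exact Nat.eq_of_beq_eq_true h5
        rw [this, ← Equiv.Perm.mul_apply, ← map_mul, ← h2, map_mul, Equiv.Perm.mul_apply, h6]
    rw [h1]
    show Nat.card (⊥ : Subgroup G) ≤ 1
    rw [Subgroup.card_bot]
  | cons p L ih =>
    obtain ⟨b, C⟩ := p
    intro prev hL hp h
    have h' : (cand prev b b && (nall (fun x => Bool.or (!cand prev b x) (C.contains x)) 275 &&
      chk L (b :: prev))) = true := h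
    rw [Bool.and_eq_true, Bool.and_eq_true] at h'
    obtain ⟨hb, hC, hch⟩ := h'
    have hb275 : b < 275 := (hL (b, C) (List.mem_cons_self)).1
    have hbrow : rowB b = true := (hL (b, C) (List.mem_cons_self)).2
    have h1 := ih (b :: prev) (fun p hp => hL p (List.mem_cons_of_mem _ hp)) (fun c hc => by
      rcases List.mem_cons.1 hc with rfl | hc
      · exact ⟨hb275, hbrow⟩
      · exact hp c hc) hch
    set b' : Fin 275 := ⟨b, hb275⟩ with hb'
    have h2 : Nat.card (KK g ρ prev) ≤ C.length * Nat.card (KK g ρ (b :: prev)) := by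
      apply card_le_map _ _ C (fun a => ((ρ a b' : Fin 275) : ℕ))
      · rintro a ⟨ha1, ha2⟩
        set x : Fin 275 := ρ a b' with hx
        have htx : ρ (g 9) x = ρ a (ρ (g 9) b') := by
          rw [hx, ← Equiv.Perm.mul_apply, ← map_mul, ha1, map_mul, Equiv.Perm.mul_apply]
        have hc : cand prev b x = true := by
          unfold cand
          rw [Bool.and_eq_true, Bool.and_eq_true]
          have hbb := hb
          unfold cand at hbb
          rw [Bool.and_eq_true, Bool.and_eq_true] at hbb
          refine ⟨?_, ?_, ?_⟩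
          · rw [beqb_iff]
            have e1 := beqb_iff.1 ((nall_iff _ _).1 tF_ok x x.2)
            have e2 := beqb_iff.1 ((nall_iff _ _).1 tF_ok b hb275)
            rw [e1, e2]
            have e3 : (tget 9 tt x = x) ↔ tget 9 tt b = b := by
              have e4 : tget 9 tt x = ((ρ (g 9) x : Fin 275) : ℕ) := (M.tact x).symm
              have e5 : tget 9 tt b = ((ρ (g 9) b' : Fin 275) : ℕ) := (M.tact b').symm
              rw [e4, e5, htx]
              constructor
              · intro h
                have := (ρ a).injective (Fin.ext h : ρ a (ρ (g 9) b') = x)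
                exact congrArg Fin.val this
              · intro h
                have : ρ (g 9) b' = b' := Fin.ext h
                rw [this]
            rw [Bool.eq_iff_iff, Nat.beq_eq, Nat.beq_eq]
            exact e3
          · rw [beqb_iff]
            have e1 := beqb_iff.1 ((nall_iff _ _).1 tA_ok x x.2)
            have e2 := beqb_iff.1 ((nall_iff _ _).1 tA_ok b hb275)
            rw [e1, e2]
            have e4 : tget 9 tt x = ((ρ (g 9) x : Fin 275) : ℕ) := (M.tact x).symm
            have e5 : tget 9 tt b = ((ρ (g 9) b' : Fin 275) : ℕ) := (M.tact b').symm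
            rw [e4, e5, htx]
            exact M.inv a b' (ρ (g 9) b')
          · rw [lall_iff]
            intro c hc
            obtain ⟨hc1, hc2⟩ := hp c hc
            have hfix := ha2 ⟨c, hc1⟩ hc
            have hbc := (lall_iff _ _).1 hbb.2.2 c hc
            simp only [Bool.and_eq_true, Bool.not_eq_true'] at hbc ⊢
            have e4 : tget 9 tt x = ((ρ (g 9) x : Fin 275) : ℕ) := (M.tact x).symm
            have e5 : tget 9 tt b = ((ρ (g 9) b' : Fin 275) : ℕ) := (M.tact b').symm
            have r1 := beqb_iff.1 ((nall_iff _ _).1 hc2 x x.2)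
            have r2 := beqb_iff.1 ((nall_iff _ _).1 hc2 b hb275)
            refine ⟨?_, ?_, ?_, ?_⟩
            · rw [beqb_iff, r1, r2]
              have := M.inv a b' ⟨c, hc1⟩
              rw [hfix] at this
              exact this
            · rw [beqb_iff, e4, e5]
              have r3 := beqb_iff.1 ((nall_iff _ _).1 hc2 (ρ (g 9) x : Fin 275) (Fin.is_lt _))
              have r4 := beqb_iff.1 ((nall_iff _ _).1 hc2 (ρ (g 9) b' : Fin 275) (Fin.is_lt _))
              rw [r3, r4, htx]
              have := M.inv a (ρ (g 9) b') ⟨c, hc1⟩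
              rw [hfix] at this
              exact this
            · rw [Bool.eq_false_iff]
              intro h
              have h1 : x = ⟨c, hc1⟩ := Fin.ext (Nat.eq_of_beq_eq_true h)
              have h2 : b' = ⟨c, hc1⟩ := by
                apply (ρ a).injective
                rw [hfix]; exact h1
              have h3 : b = c := congrArg Fin.val h2
              have h4 := hbc.2.2.1
              rw [h3] at h4
              simp at h4
            · rw [Bool.eq_false_iff]
              intro h
              have h1 : (x : ℕ) = tget 9 tt c := Nat.eq_of_beq_eq_true h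
              have h2 : tget 9 tt c = ((ρ (g 9) ⟨c, hc1⟩ : Fin 275) : ℕ) := (M.tact ⟨c, hc1⟩).symm
              have h3 : x = ρ (g 9) ⟨c, hc1⟩ := Fin.ext (h1.trans h2)
              have h4 : ρ a (ρ (g 9) ⟨c, hc1⟩) = ρ (g 9) ⟨c, hc1⟩ := by
                rw [← Equiv.Perm.mul_apply, ← map_mul, ← ha1, map_mul, Equiv.Perm.mul_apply, hfix]
              have h5 : b' = ρ (g 9) ⟨c, hc1⟩ := by
                apply (ρ a).injective
                rw [h4]; exact h3
              have h6 : b = tget 9 tt c := (congrArg Fin.val h5).trans h2.symm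
              have h7 := hbc.2.2.2
              rw [← h6] at h7
              simp at h7
        have h3 := (nall_iff _ _).1 hC x x.2
        rw [Bool.or_eq_true, hc] at h3
        rcases h3 with h3 | h3
        · exact absurd h3 (by decide)
        · exact List.contains_iff_mem.1 h3
      · rintro a ⟨ha1, ha2⟩ c ⟨hc1, hc2⟩ hac
        have hm : a⁻¹ * c ∈ KK g ρ prev := (KK g ρ prev).mul_mem ((KK g ρ prev).inv_mem ⟨ha1, ha2⟩) ⟨hc1, hc2⟩
        refine ⟨hm.1, fun d hd => ?_⟩
        rcases List.mem_cons.1 hd with h | h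
        · have hdb : d = b' := Fin.ext h
          have h5 : ρ a b' = ρ c b' := Fin.ext hac
          rw [hdb, map_mul, Equiv.Perm.mul_apply, ← h5, ← Equiv.Perm.mul_apply, ← map_mul, inv_mul_cancel,
            map_one]
          rfl
        · exact hm.2 d h
    calc Nat.card (KK g ρ prev) ≤ C.length * Nat.card (KK g ρ (b :: prev)) := h2
      _ ≤ C.length * plen L := Nat.mul_le_mul_left _ h1
      _ = plen ((b, C) :: L) := rfl

theorem MC.card_cen [Finite G] (M : MC g ρ) : Nat.card (centralizer ({g 9} : Set G)) ≤ 80640 := by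
  have h1 := chain M bas [] (fun p hp => ⟨Nat.le_of_ble_eq_true (List.all_eq_true.1 bas_lt p hp),
    (lall_iff _ _).1 rows_ok p hp⟩) (fun c hc => absurd hc (by simp)) chk_ok
  rw [plen_bas] at h1
  have h2 : centralizer ({g 9} : Set G) = KK g ρ [] := by
    ext a
    rw [mem_centralizer_singleton_iff, mem_KK]
    constructor
    · intro h; exact ⟨h.symm, fun c hc => absurd hc (by simp)⟩
    · intro h; exact h.1.symm
  rw [h2]; exact h1

end Cfsg.Agent.H89.McLC
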