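import Cfsg.Agent.GK.Carm
import Cfsg.Prelude.Def_SporadicB

/-! # Recognition of a double cover of `A₈` (helper89) -/

set_option autoImplicit false

namespace Cfsg.Agent.H89.McLC

open Cfsg Subgroup Cfsg.Agent.GK

theorem card_alt : Nat.card (alternatingGroup (Option (Option (Fin 6)))) = 20160 := by
  have h := two_mul_nat_card_alternatingGroup (α := Option (Option (Fin 6)))
  rw [Nat.card_eq_fintype_card, Nat.card_eq_fintype_card, Fintype.card_perm] at h
  simp only [Fintype.card_option, Fintype.card_fin] at h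
  rw [Nat.card_eq_fintype_card]
  have h2 : (6 + 1 + 1).factorial = 40320 := by decide
  omega

theorem dbl {H : Type*} [Group H] [Finite H] (z : H) (hz : ∀ x, z * x = x * z) (z2 : z * z = 1)
    (z1 : z ≠ 1) (a : Fin 6 → H) (h3 : ∀ i, a i ^ 3 = 1)
    (h2 : ∀ i j, i ≠ j → (a i * a j) ^ 2 = z)
    (hd : Nat.card H ∣ 898128000) (hle : Nat.card H ≤ 80640) :
    IsNonsplitDoubleCover H (alternatingGroup (Fin 8)) := by
  classical
  have hs : IsSimpleGroup (alternatingGroup (Option (Option (Fin 6)))) :=
    alternatingGroup.isSimpleGroup (by simp)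
  have hN : (zpowers z).Normal := by
    constructor
    intro n hn g
    have : g * n * g⁻¹ = n := by
      obtain ⟨k, rfl⟩ := mem_zpowers_iff.1 hn
      have h1 : Commute z g := hz g
      have h2 : Commute (z ^ k) g := h1.zpow_left k
      rw [← h2.eq, mul_inv_cancel_right]
    rw [this]; exact hn
  have hmem : ∀ x ∈ zpowers z, x = 1 ∨ x = z := by
    intro x hx
    obtain ⟨k, rfl⟩ := mem_zpowers_iff.1 hx
    rcases Int.even_or_odd' k with ⟨m, rfl | rfl⟩
    · left
      rw [zpow_mul, zpow_two, z2, one_zpow]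
    · right
      rw [zpow_add, zpow_mul, zpow_two, z2, one_zpow, zpow_one, one_mul]
  have hzc : Nat.card (zpowers z) = 2 := by
    rw [Nat.card_zpowers]
    exact orderOf_eq_prime (by rw [pow_two, z2]) z1
  obtain ⟨φ, hφ⟩ := exists_hom (Λ := Fin 6) (fun i => (QuotientGroup.mk (a i) : H ⧸ zpowers z))
    (fun i => by rw [← QuotientGroup.mk_pow, h3]; rfl)
    (fun i j hij => by
      rw [← QuotientGroup.mk_mul, ← QuotientGroup.mk_pow, h2 i j hij]
      exact (QuotientGroup.eq_one_iff z).2 (mem_zpowers z))
  -- `φ` is not trivial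
  have hne : a 0 ∉ zpowers z := by
    intro h
    rcases hmem _ h with h | h
    · have h4 := h2 0 1 (by decide)
      rw [h, one_mul] at h4
      have h5 := h3 1
      rw [pow_succ, h4] at h5
      have h6 : a 1 = z := by
        calc a 1 = z * (z * a 1) := by rw [← mul_assoc, z2, one_mul]
          _ = z := by rw [h5, mul_one]
      rw [h6] at h4
      rw [pow_two, z2] at h4
      exact z1 h4.symm
    · have h5 := h3 0
      rw [h, pow_succ, pow_two, z2, one_mul] at h5
      exact z1 h5
  have hinj : Function.Injective φ := by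
    rw [← MonoidHom.ker_eq_bot_iff]
    rcases (inferInstance : φ.ker.Normal).eq_bot_or_eq_top with h | h
    · exact h
    · exfalso
      apply hne
      have h1 : XA (0 : Fin 6) ∈ φ.ker := by rw [h]; exact mem_top _
      rw [MonoidHom.mem_ker, hφ 0] at h1
      exact (QuotientGroup.eq_one_iff (a 0)).1 h1
  have hcq : Nat.card H = Nat.card (H ⧸ zpowers z) * 2 := by
    have := card_eq_card_quotient_mul_card_subgroup (zpowers z)
    rw [hzc] at this
    exact this
  have hdvd : 20160 ∣ Nat.card (H ⧸ zpowers z) := by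
    rw [← card_alt]
    exact Subgroup.card_dvd_of_injective φ hinj
  obtain ⟨k, hk⟩ := hdvd
  have hpos : 0 < Nat.card H := Nat.card_pos
  have hk1 : k = 1 := by
    have hk2 : k ≤ 2 := by omega
    interval_cases k
    · omega
    · rfl
    · exfalso
      rw [hcq, hk] at hd
      norm_num at hd
  have hcard : Nat.card (H ⧸ zpowers z) = 20160 := by rw [hk, hk1]
  have hbij : Function.Bijective φ := by
    refine (Nat.bijective_iff_injective_and_card φ).2 ⟨hinj, ?_⟩
    rw [card_alt, hcard]
  let e : alternatingGroup (Option (Option (Fin 6))) ≃* H ⧸ zpowers z := MulEquiv.ofBijective φ hbij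
  have hna : ∃ x y : H ⧸ zpowers z, x * y ≠ y * x := by
    by_contra hn
    push Not at hn
    have hX : ∀ x y : alternatingGroup (Option (Option (Fin 6))), x * y = y * x := by
      intro x y
      apply e.injective
      rw [map_mul, map_mul, hn]
    have h1 := hX (XA 0) (XA 1)
    have h4 : (a 0 * a 1) ^ 2 = z := h2 0 1 (by decide)
    have h5 : (QuotientGroup.mk (a 0) : H ⧸ zpowers z) * QuotientGroup.mk (a 1) =
        QuotientGroup.mk (a 1) * QuotientGroup.mk (a 0) := hn _ _
    have h6 : (QuotientGroup.mk (a 0) : H ⧸ zpowers z) ^ 2 * QuotientGroup.mk (a 1) ^ 2 = 1 := by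
      have h7 : ((QuotientGroup.mk (a 0) : H ⧸ zpowers z) * QuotientGroup.mk (a 1)) ^ 2 = 1 := by
        rw [← QuotientGroup.mk_mul, ← QuotientGroup.mk_pow, h4]
        exact (QuotientGroup.eq_one_iff z).2 (mem_zpowers z)
      rw [← h7, (show Commute _ _ from h5).mul_pow]
    have h8 : (QuotientGroup.mk (a 0) : H ⧸ zpowers z) * QuotientGroup.mk (a 1) = 1 := by
      have c0 : (QuotientGroup.mk (a 0) : H ⧸ zpowers z) ^ 3 = 1 := by
        rw [← QuotientGroup.mk_pow, h3]; rfl
      have c1 : (QuotientGroup.mk (a 1) : H ⧸ zpowers z) ^ 3 = 1 := by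
        rw [← QuotientGroup.mk_pow, h3]; rfl
      have c2 : ((QuotientGroup.mk (a 0) : H ⧸ zpowers z) * QuotientGroup.mk (a 1)) ^ 3 = 1 := by
        rw [(show Commute _ _ from h5).mul_pow, c0, c1, one_mul]
      have c3 : ((QuotientGroup.mk (a 0) : H ⧸ zpowers z) * QuotientGroup.mk (a 1)) ^ 2 = 1 := by
        rw [(show Commute _ _ from h5).mul_pow, h6]
      rw [pow_succ, c3, one_mul] at c2
      exact c2
    rw [← QuotientGroup.mk_mul] at h8
    rcases hmem _ ((QuotientGroup.eq_one_iff _).1 h8) with h | h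
    · rw [h, one_pow] at h4
      exact z1 h4.symm
    · rw [h, pow_two, z2] at h4
      exact z1 h4.symm
  have hsq : IsSimpleGroup (H ⧸ zpowers z) := MulEquiv.isSimpleGroup e.symm
  have hcq1 : center (H ⧸ zpowers z) = ⊥ := by
    rcases (inferInstance : (center (H ⧸ zpowers z)).Normal).eq_bot_or_eq_top with h | h
    · exact h
    · exfalso
      obtain ⟨x, y, hxy⟩ := hna
      apply hxy
      have : y ∈ center (H ⧸ zpowers z) := by rw [h]; exact mem_top _
      exact mem_center_iff.1 this x
  have hcen : center H = zpowers z := by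
    apply le_antisymm
    · intro x hx
      have h1 : (QuotientGroup.mk x : H ⧸ zpowers z) ∈ center (H ⧸ zpowers z) := by
        rw [mem_center_iff]
        intro y
        obtain ⟨y, rfl⟩ := QuotientGroup.mk_surjective y
        rw [← QuotientGroup.mk_mul, ← QuotientGroup.mk_mul, mem_center_iff.1 hx y]
      rw [hcq1, mem_bot] at h1
      exact (QuotientGroup.eq_one_iff x).1 h1
    · rw [zpowers_le, mem_center_iff]
      exact fun g => (hz g).symm
  refine ⟨by rw [hcen, hzc], ?_, ?_⟩
  · have e8 : alternatingGroup (Option (Option (Fin 6))) ≃* alternatingGroup (Fin 8) :=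
      Equiv.altCongrHom (Fintype.equivFinOfCardEq (by simp))
    exact ⟨((QuotientGroup.quotientMulEquivOfEq hcen).trans e.symm).trans e8⟩
  · intro Lc hL
    have h4 : (a 0 * a 1) ^ 2 = z := h2 0 1 (by decide)
    obtain ⟨⟨⟨c, hc⟩, ⟨l, hl⟩⟩, hcl⟩ := hL.2 (a 0 * a 1)
    have hcl' : c * l = a 0 * a 1 := hcl
    have hc2 : c * c = 1 := by
      rw [SetLike.mem_coe, hcen] at hc
      rcases hmem c hc with h | h
      · rw [h, one_mul]
      · rw [h, z2]
    have hcc : c * l = l * c := (mem_center_iff.1 hc l).symm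
    have h5 : l * l = z := by
      rw [← h4, ← hcl', pow_two]
      calc l * l = c * c * (l * l) := by rw [hc2, one_mul]
        _ = c * (c * l) * l := by group
        _ = c * (l * c) * l := by rw [hcc]
        _ = c * l * (c * l) := by group
    have h6 : z ∈ Lc := by rw [← h5]; exact Lc.mul_mem hl hl
    have h7 : z ∈ center H := by rw [hcen]; exact mem_zpowers z
    have h8 : z = 1 := by
      have := hL.1 (a₁ := (⟨z, h7⟩, ⟨1, Lc.one_mem⟩)) (a₂ := (⟨1, one_mem _⟩, ⟨z, h6⟩)) (by simp)
      have h9 := congrArg Prod.fst this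
      exact congrArg Subtype.val h9
    exact z1 h8

end Cfsg.Agent.H89.McLC
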