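import Cfsg.Agent.H89.McLCen
import Cfsg.Agent.H89.McLDbl

/-! # McL: the Sylow 2-subgroup and the class of involutions (helper89) -/

set_option autoImplicit false
set_option maxRecDepth 100000

namespace Cfsg.Agent.H89.McLC

open Cfsg Cfsg.Agent Cfsg.Agent.PermTab Cfsg.Agent.MLin Cfsg.Agent.MLin.McL Cfsg.Agent.CosetEnum Subgroup

variable {G : Type*} [Group G] {g : ℕ → G} {ρ : G →* Equiv.Perm (Fin 275)}

/-- entry of the multiplication table -/
def mte (j k : ℕ) : ℕ := (mt.getD j []).getD k 0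

/-- frame of an element -/
def frm (k i : ℕ) : ℕ := tget 9 (tget 198 tf k) i

/-- word of a generator -/
def pw (j : ℕ) : List ℕ := pgw.getD j []

/-- word of an element -/
def ewd (k : ℕ) : List ℕ := ew.getD k []

/-- follow the table -/
def fol (u : List ℕ) (m : ℕ) : ℕ := u.foldr mte m

theorem cl_ok : nall (fun j => nall (fun m => Bool.and (Nat.blt (mte j m) 128)
    (fc (mte j m) fun m' => nall (fun i => Nat.beq (wact 9 tb (pw j) (frm m i)) (frm m' i)) 22)) 128) 3 = true := by
  decide +kernel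

theorem one_ok : nall (fun i => Nat.beq (frm 0 i) i) 22 = true := by decide +kernel

theorem dist_ok : nall (fun k => nall (fun l => !(nall (fun i => Nat.beq (frm k i) (frm l i)) 22)) k) 128 = true := by
  decide +kernel

theorem ew_ok : nall (fun k => Bool.and (Nat.beq (fol (ewd k) 0) k) ((ewd k).all fun j => Nat.blt j 3)) 128 = true := by
  decide +kernel

/-- check of the type -/
noncomputable def infB (k : ℕ) (p : ℕ × ℕ × List ℕ) : Bool :=
  cond (Nat.beq p.1 0) (Nat.beq k 0) (cond (Nat.beq p.1 1)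
    (nall (fun i => Nat.beq (wact 9 tb p.2.2 (frm k i)) (tget 9 tt (wact 9 tb p.2.2 i))) 22)
    (!Nat.beq (fol (ewd k) k) 0))

theorem inf_ok : nall (fun k => infB k (info.getD k (0, 0, []))) 128 = true := by decide +kernel

/-- the frame of `a` is the frame number `m` -/
def Fr (ρ : G →* Equiv.Perm (Fin 275)) (a : G) (m : ℕ) : Prop :=
  m < 128 ∧ ∀ i : Fin 275, (i : ℕ) < 22 → ((ρ a i : Fin 275) : ℕ) = frm m i

theorem Fr.one : Fr ρ (1 : G) 0 := by
  refine ⟨by norm_num, fun i hi => ?_⟩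
  rw [map_one]
  exact (Nat.eq_of_beq_eq_true ((nall_iff _ _).1 one_ok i hi)).symm

theorem Fr.mul (M : MC g ρ) {a : G} {m : ℕ} (h : Fr ρ a m) {j : ℕ} (hj : j < 3) :
    Fr ρ (wd g (pw j) * a) (mte j m) := by
  have h1 := (nall_iff _ _).1 ((nall_iff _ _).1 cl_ok j hj) m h.1
  rw [Bool.and_eq_true, fc_eq] at h1
  refine ⟨Nat.le_of_ble_eq_true h1.1, fun i hi => ?_⟩
  rw [map_mul, Equiv.Perm.mul_apply, M.word, h.2 i hi]
  exact Nat.eq_of_beq_eq_true ((nall_iff _ _).1 h1.2 i hi)

theorem Fr.unique {a : G} {m m' : ℕ} (h : Fr ρ a m) (h' : Fr ρ a m') : m = m' := by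
  have key : ∀ k l : ℕ, k < 128 → l < k → Fr ρ a k → Fr ρ a l → False := by
    intro k l hk hl h1 h2
    have h3 := (nall_iff _ _).1 ((nall_iff _ _).1 dist_ok k hk) l hl
    rw [Bool.not_eq_true'] at h3
    rw [Bool.eq_false_iff] at h3
    apply h3
    rw [nall_iff]
    intro i hi
    rw [Nat.beq_eq, ← h1.2 ⟨i, by omega⟩ hi, ← h2.2 ⟨i, by omega⟩ hi]
  rcases lt_trichotomy m m' with h1 | h1 | h1
  · exact (key m' m h'.1 h1 h' h).elim
  · exact h1
  · exact (key m m' h.1 h1 h h').elim

theorem Fr.inj (M : MC g ρ) {a b : G} {m : ℕ} (h : Fr ρ a m) (h' : Fr ρ b m) : a = b := by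
  apply M.ext
  intro i hi
  apply Fin.ext
  rw [h.2 i hi, h'.2 i hi]

/-- product of generators -/
def pp (g : ℕ → G) (u : List ℕ) : G := (u.map fun j => wd g (pw j)).prod

theorem Fr.fol (M : MC g ρ) {a : G} {m : ℕ} (h : Fr ρ a m) : ∀ u : List ℕ, (∀ j ∈ u, j < 3) →
    Fr ρ (pp g u * a) (fol u m) := by
  intro u
  induction u with
  | nil => intro _; simpa [pp, McLC.fol] using h
  | cons j u ih =>
    intro hu
    have h1 := ih (fun k hk => hu k (List.mem_cons_of_mem _ hk))
    have h2 := h1.mul M (hu j List.mem_cons_self)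
    have e1 : pp g (j :: u) * a = wd g (pw j) * (pp g u * a) := by
      unfold pp; rw [List.map_cons, List.prod_cons, mul_assoc]
    rw [e1]
    exact h2

/-- the Sylow 2-subgroup -/
def PP (g : ℕ → G) : Subgroup G := closure {x | ∃ j < 3, x = wd g (pw j)}

theorem pp_mem (u : List ℕ) (hu : ∀ j ∈ u, j < 3) : pp g u ∈ PP g := by
  unfold pp
  apply Subgroup.list_prod_mem
  intro x hx
  obtain ⟨j, hj, rfl⟩ := List.mem_map.1 hx
  exact subset_closure ⟨j, hu j hj, rfl⟩

theorem PP_fr [Finite G] (M : MC g ρ) {x : G} (hx : x ∈ PP g) : ∃ m, Fr ρ x m := by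
  let Q : Subgroup G :=
    { carrier := {y | ∀ a, (∃ m, Fr ρ a m) → ∃ m, Fr ρ (y * a) m}
      one_mem' := fun a h => by rw [one_mul]; exact h
      mul_mem' := fun {y z} hy hz a h => by rw [mul_assoc]; exact hy _ (hz _ h)
      inv_mem' := by
        intro y hy
        have hpow : ∀ n : ℕ, ∀ a, (∃ m, Fr ρ a m) → ∃ m, Fr ρ (y ^ n * a) m := by
          intro n
          induction n with
          | zero => intro a h; rw [pow_zero, one_mul]; exact h
          | succ n ih => intro a h; rw [pow_succ, mul_assoc]; exact ih _ (hy _ h)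
        have h1 : y⁻¹ = y ^ (orderOf y - 1) := by
          have h2 := orderOf_pos y
          apply inv_eq_of_mul_eq_one_left
          rw [← pow_succ, Nat.sub_add_cancel h2, pow_orderOf_eq_one]
        show ∀ a, (∃ m, Fr ρ a m) → ∃ m, Fr ρ (y⁻¹ * a) m
        rw [h1]
        exact hpow _ }
  have h1 : PP g ≤ Q := by
    unfold PP
    rw [closure_le]
    rintro y ⟨j, hj, rfl⟩ a ⟨m, hm⟩
    exact ⟨_, hm.mul M hj⟩
  have h2 := h1 hx 1 ⟨0, Fr.one⟩
  rwa [mul_one] at h2

theorem elt (M : MC g ρ) {k : ℕ} (hk : k < 128) : Fr ρ (pp g (ewd k)) k ∧ ∀ j ∈ ewd k, j < 3 := by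
  have h1 := (nall_iff _ _).1 ew_ok k hk
  rw [Bool.and_eq_true, List.all_eq_true] at h1
  have h3 : ∀ j ∈ ewd k, j < 3 := fun j hj => Nat.le_of_ble_eq_true (h1.2 j hj)
  have h2 := Fr.one.fol M (ewd k) h3
  rw [mul_one, Nat.eq_of_beq_eq_true h1.1] at h2
  exact ⟨h2, h3⟩

theorem card_PP [Finite G] (M : MC g ρ) : Nat.card (PP g) = 128 := by
  have h1 : ∀ x : PP g, ∃ m, Fr ρ (x : G) m := fun x => PP_fr M x.2
  choose f hf using h1
  let F : PP g → Fin 128 := fun x => ⟨f x, (hf x).1⟩
  have hF : Function.Bijective F := by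
    constructor
    · intro x y hxy
      have h2 : f x = f y := congrArg Fin.val hxy
      have h3 := hf x
      rw [h2] at h3
      exact Subtype.ext (h3.inj M (hf y))
    · intro k
      obtain ⟨h2, h3⟩ := elt M k.2
      refine ⟨⟨pp g (ewd k), pp_mem _ h3⟩, ?_⟩
      apply Fin.ext
      exact (hf _).unique h2
  rw [Nat.card_congr (Equiv.ofBijective F hF), Nat.card_fin]

theorem conj_of_mem [Finite G] (M : MC g ρ) {x : G} (hx : x ∈ PP g) (hxx : x * x = 1) (h1 : x ≠ 1) :
    ∃ c : G, c * x * c⁻¹ = g 9 := by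
  obtain ⟨m, hm⟩ := PP_fr M hx
  have h2 := (nall_iff _ _).1 inf_ok m hm.1
  unfold infB at h2
  by_cases a0 : Nat.beq (info.getD m (0, 0, [])).1 0 = true
  · rw [a0] at h2
    have h3 : m = 0 := Nat.eq_of_beq_eq_true h2
    rw [h3] at hm
    exact absurd (hm.inj M Fr.one) h1
  · rw [Bool.not_eq_true] at a0
    rw [a0] at h2
    by_cases a1 : Nat.beq (info.getD m (0, 0, [])).1 1 = true
    · rw [a1] at h2
      have h3 : nall (fun i => Nat.beq (wact 9 tb (info.getD m (0, 0, [])).2.2 (frm m i))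
        (tget 9 tt (wact 9 tb (info.getD m (0, 0, [])).2.2 i))) 22 = true := h2
      refine ⟨wd g (info.getD m (0, 0, [])).2.2, ?_⟩
      rw [mul_inv_eq_iff_eq_mul]
      apply M.ext
      intro i hi
      apply Fin.ext
      rw [map_mul, Equiv.Perm.mul_apply, M.word, hm.2 i hi, map_mul, Equiv.Perm.mul_apply, M.tact, M.word]
      exact Nat.eq_of_beq_eq_true ((nall_iff _ _).1 h3 i hi)
    · rw [Bool.not_eq_true] at a1
      rw [a1] at h2
      exfalso
      have h3 : (!Nat.beq (fol (ewd m) m) 0) = true := h2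
      obtain ⟨h4, h5⟩ := elt M hm.1
      have h6 := hm.fol M (ewd m) h5
      rw [h4.inj M hm, hxx] at h6
      have h7 := h6.unique Fr.one
      rw [h7] at h3
      exact absurd h3 (by decide)

theorem one_class [Finite G] (M : MC g ρ) {x : G} (hx : orderOf x = 2) : ∃ c : G, c * x * c⁻¹ = g 9 := by
  have : Fact (Nat.Prime 2) := ⟨Nat.prime_two⟩
  have hcard : Nat.card (PP g) = 2 ^ (Nat.card G).factorization 2 := by
    rw [card_PP M, M.card]
    have h1 : (898128000 : ℕ) = 2 ^ 7 * 7016625 := by norm_num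
    rw [h1, Nat.factorization_mul (by norm_num) (by norm_num), Nat.factorization_pow]
    have h2 : (7016625 : ℕ).factorization 2 = 0 := Nat.factorization_eq_zero_of_not_dvd (by norm_num)
    simp [h2, Nat.Prime.factorization_self Nat.prime_two]
  let P : Sylow 2 G := Sylow.ofCard (PP g) hcard
  have hz : IsPGroup 2 (zpowers x) := by
    apply IsPGroup.of_card (n := 1)
    rw [Nat.card_zpowers, hx, pow_one]
  obtain ⟨Q, hQ⟩ := hz.exists_le_sylow
  obtain ⟨c, hc⟩ := MulAction.exists_smul_eq G Q P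
  have h1 : c * x * c⁻¹ ∈ PP g := by
    have h2 : c * x * c⁻¹ ∈ (P : Subgroup G) := by
      rw [← hc]
      exact Subgroup.smul_mem_pointwise_smul x (MulAut.conj c) _ (hQ (mem_zpowers x))
    exact h2
  have hxx : x * x = 1 := by rw [← pow_two, ← hx, pow_orderOf_eq_one]
  have hx1 : x ≠ 1 := by
    intro h
    rw [h, orderOf_one] at hx
    exact absurd hx (by decide)
  obtain ⟨d, hd⟩ := conj_of_mem M h1 (by
    calc c * x * c⁻¹ * (c * x * c⁻¹) = c * (x * x) * c⁻¹ := by group
      _ = 1 := by rw [hxx]; group) (by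
    intro h
    apply hx1
    have : x = c⁻¹ * (c * x * c⁻¹) * c := by group
    rw [this, h]; group)
  exact ⟨d * c, by rw [← hd]; group⟩

theorem main [Finite G] (M : MC g ρ) : (∀ x y : G, orderOf x = 2 → orderOf y = 2 → IsConj x y) ∧
    ∃ t : G, orderOf t = 2 ∧
      IsNonsplitDoubleCover ↥(centralizer ({t} : Set G)) ↥(alternatingGroup (Fin 8)) := by
  constructor
  · intro x y hx hy
    obtain ⟨c, hc⟩ := one_class M hx
    obtain ⟨d, hd⟩ := one_class M hy
    rw [isConj_iff]
    refine ⟨d⁻¹ * c, ?_⟩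
    calc d⁻¹ * c * x * (d⁻¹ * c)⁻¹ = d⁻¹ * (c * x * c⁻¹) * d := by group
      _ = y := by rw [hc, ← hd]; group
  · refine ⟨g 9, orderOf_eq_prime (by rw [pow_two, M.tsq]) M.tne, ?_⟩
    set H := centralizer ({g 9} : Set G) with hH
    have hmem : ∀ i : Fin 6, wd g (awd i) ∈ H := by
      intro i
      rw [hH, mem_centralizer_singleton_iff]
      have h1 := M.eqw ((nall_iff _ _).1 rel2 i i.2)
      rw [wd_cons, wd_append] at h1
      have h2 : wd g [9] = g 9 := by simp [wd]
      rw [h2] at h1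
      exact h1.symm
    have ht : g 9 ∈ H := by rw [hH, mem_centralizer_singleton_iff]
    apply dbl (z := (⟨g 9, ht⟩ : H)) (a := fun i => (⟨wd g (awd i), hmem i⟩ : H))
    · rintro ⟨x, hx⟩
      apply Subtype.ext
      rw [hH, mem_centralizer_singleton_iff] at hx
      exact hx.symm
    · exact Subtype.ext M.tsq
    · intro h
      exact M.tne (congrArg Subtype.val h)
    · intro i
      apply Subtype.ext
      have h1 := M.eqw ((nall_iff _ _).1 rel3 i i.2)
      rw [wd_append, wd_append] at h1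
      show wd g (awd i) ^ 3 = 1
      rw [pow_succ, pow_two, mul_assoc, h1]
      rfl
    · intro i j hij
      apply Subtype.ext
      have h1 := (nall_iff _ _).1 ((nall_iff _ _).1 rel4 i i.2) j j.2
      rw [Bool.or_eq_true] at h1
      rcases h1 with h1 | h1
      · exact absurd (Fin.ext (Nat.eq_of_beq_eq_true h1)) hij
      · have h2 := M.eqw h1
        rw [wd_append, wd_append, wd_append] at h2
        have h3 : wd g [9] = g 9 := by simp [wd]
        rw [h3] at h2
        show (wd g (awd i) * wd g (awd j)) ^ 2 = g 9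
        rw [pow_two, ← h2]
        group
    · rw [← M.card]
      exact Subgroup.card_subgroup_dvd_card H
    · exact M.card_cen

end Cfsg.Agent.H89.McLC
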