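import Cfsg.Agent.MLin.LatG
import Cfsg.Agent.MLin.McLData
import Cfsg.Agent.H90.CoTrans
import Cfsg.Agent.LeechSimple.McL
import Cfsg.Agent.H89.McLSyl

/-!
# McL acting on 275 lattice vectors (helper89)

The first part is a copy of the beginning of `Cfsg.Agent.MLin.McL` (helper7), without its heavy imports.
-/

set_option autoImplicit false
set_option maxRecDepth 1000000

namespace Cfsg.Agent.H89.McLC

open Cfsg Cfsg.Agent Cfsg.Agent.Leech Cfsg.Agent.PermTab Cfsg.Agent.CosetEnum Cfsg.Agent.MulX Cfsg.Agent.MLin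
  Cfsg.Agent.MLin.Lat Cfsg.Agent.MLin.McL MulAction

theorem codeV : ∀ p, (Spor.leechV : GolayPt → ℤ) p = ivv (tget 96 cd 275) p := by decide +kernel

theorem codeU : ∀ p, (Spor.leechU : GolayPt → ℤ) p = ivv (tget 96 cd 276) p := by decide +kernel

/-- the group -/
abbrev S : Subgroup Co0 := stabilizer Co0 Spor.leechV ⊓ stabilizer Co0 Spor.leechU

theorem card_S : Nat.card S = 898128000 := LeechSimple.card_mcl

theorem frame_none : ∀ p : GolayPt, 9 * (e8 none : GolayPt → ℤ) p =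
    4 * (Spor.leechV : GolayPt → ℤ) p + (Spor.leechU : GolayPt → ℤ) p - ∑ i : Fin 22, ivv (tget 96 cd (fr.getD i 0)) p := by
  decide +kernel

theorem frame_zero : ∀ p : GolayPt, (e8 (some 0) : GolayPt → ℤ) p =
    2 * (Spor.leechU : GolayPt → ℤ) p - (e8 none : GolayPt → ℤ) p := by decide +kernel

theorem frame_some : ∀ j : ZMod 23, j ≠ 0 → ∀ p : GolayPt, (e8 (some j) : GolayPt → ℤ) p =
    -2 * ivv (tget 96 cd (fr.getD (j.val - 1) 0)) p - (e8 none : GolayPt → ℤ) p := by decide +kernel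

theorem fr_lt : ∀ i < 22, fr.getD i 0 < 275 ∧ fr.getD i 0 ∈ fr := by decide +kernel

section

variable {pt : Fin 275 → leechLattice} (hpt : ∀ i : Fin 275, Pt cd i (pt i))

include hpt

theorem faith (a : S) (h : ∀ i : Fin 275, (i : ℕ) ∈ fr → a • pt i = pt i) : a = 1 := by
  apply Subtype.ext
  have hV : Spor.leechV ∈ fixL (a : Co0) := a.2.1
  have hU : Spor.leechU ∈ fixL (a : Co0) := a.2.2
  have hx : ∀ i : ℕ, ∀ hi : i < 22, pt ⟨fr.getD i 0, (fr_lt i hi).1⟩ ∈ fixL (a : Co0) :=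
    fun i hi => h _ (fr_lt i hi).2
  have h0 : e8 none ∈ fixL (a : Co0) := by
    apply fix_of_nsmul (m := 9) (by norm_num)
    have e : (9 : ℕ) • e8 none = (4 : ℕ) • Spor.leechV + Spor.leechU -
        ∑ i : Fin 22, pt ⟨fr.getD i 0, (fr_lt i i.2).1⟩ := by
      apply Subtype.ext
      funext p
      rw [AddSubgroup.coe_nsmul, AddSubgroup.coe_sub, AddSubgroup.coe_add, AddSubgroup.coe_nsmul,
        AddSubgroup.val_finsetSum]
      have h1 := frame_none p
      have h2 : ∀ i : Fin 22, (pt ⟨fr.getD i 0, (fr_lt i i.2).1⟩ : GolayPt → ℤ) = ivv (tget 96 cd (fr.getD i 0)) :=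
        fun i => hpt _
      simp only [h2, Pi.smul_apply, Pi.sub_apply, Pi.add_apply, Finset.sum_apply, nsmul_eq_mul, Nat.cast_ofNat] at h1 ⊢
      exact h1
    rw [e]
    exact (fixL (a : Co0)).sub_mem ((fixL (a : Co0)).add_mem ((fixL (a : Co0)).nsmul_mem hV 4) hU)
      (AddSubgroup.sum_mem _ fun i _ => hx i i.2)
  apply eq_one_of_fix_e8
  intro i
  match i with
  | none => exact h0
  | some j =>
    by_cases hj0 : j = 0
    · subst hj0
      have e : e8 (some 0) = (2 : ℕ) • Spor.leechU - e8 none := by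
        apply Subtype.ext
        funext p
        rw [AddSubgroup.coe_sub, AddSubgroup.coe_nsmul]
        have h1 := frame_zero p
        simp only [Pi.smul_apply, Pi.sub_apply, nsmul_eq_mul, Nat.cast_ofNat]
        rw [h1]
        have h3 : (2 * (Spor.leechU : GolayPt → ℤ) : GolayPt → ℤ) p = 2 * (Spor.leechU : GolayPt → ℤ) p := rfl
        rw [h3]
      have h3 : e8 (some 0) ∈ fixL (a : Co0) := by
        rw [e]
        exact (fixL (a : Co0)).sub_mem ((fixL (a : Co0)).nsmul_mem hU 2) h0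
      exact h3
    · have hj : j.val < 23 := ZMod.val_lt j
      have hj1 : j.val ≠ 0 := fun h => hj0 ((ZMod.val_eq_zero j).1 h)
      have hj2 : j.val - 1 < 22 := by omega
      have e : e8 (some j) = -((2 : ℕ) • pt ⟨fr.getD (j.val - 1) 0, (fr_lt _ hj2).1⟩) - e8 none := by
        apply Subtype.ext
        funext p
        rw [AddSubgroup.coe_sub, AddSubgroup.coe_neg, AddSubgroup.coe_nsmul]
        have h1 := frame_some j hj0 p
        have h2 : (pt ⟨fr.getD (j.val - 1) 0, (fr_lt _ hj2).1⟩ : GolayPt → ℤ) = ivv (tget 96 cd (fr.getD (j.val - 1) 0)) :=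
          hpt _
        simp only [h2, Pi.smul_apply, Pi.sub_apply, Pi.neg_apply, nsmul_eq_mul, Nat.cast_ofNat]
        rw [h1]
        have h3 : (2 * ivv (tget 96 cd (fr.getD (j.val - 1) 0)) : GolayPt → ℤ) p =
          2 * ivv (tget 96 cd (fr.getD (j.val - 1) 0)) p := rfl
        rw [h3]
        ring
      have h3 : e8 (some j) ∈ fixL (a : Co0) := by
        rw [e]
        exact (fixL (a : Co0)).sub_mem ((fixL (a : Co0)).neg_mem ((fixL (a : Co0)).nsmul_mem (hx _ hj2) 2)) h0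
      exact h3

end

theorem stab_of_maps (g : Co0) (h : ∀ j < 2, Maps g (tget 96 cd (275 + j)) (tget 96 cd (275 + j))) : g ∈ S := by
  have h2 : (Spor.leechV : GolayPt → ℤ) = ivv (tget 96 cd (275 + 0)) := funext codeV
  have h3 := h 0 (by norm_num) Spor.leechV h2
  have h4 : (Spor.leechU : GolayPt → ℤ) = ivv (tget 96 cd (275 + 1)) := funext codeU
  have h5 := h 1 (by norm_num) Spor.leechU h4
  refine ⟨?_, ?_⟩
  · show g • Spor.leechV = Spor.leechV
    apply Subtype.ext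
    rw [h3]
    exact h2.symm
  · show g • Spor.leechU = Spor.leechU
    apply Subtype.ext
    rw [h5]
    exact h4.symm

/-- steps of the letters -/
def stL : ℕ → List ((ℕ × ℕ) × ℕ)
  | 0 => st0
  | 1 => st1
  | 2 => st2
  | 3 => st3
  | 4 => st4
  | 5 => st5
  | _ => []

theorem letters_ok : ∀ i < 6, letB' 9 275 2 (gt i) cd (stL i) = true := by
  intro i hi
  match i, hi with
  | 0, _ => exact act0
  | 1, _ => exact act1
  | 2, _ => exact act2
  | 3, _ => exact act3
  | 4, _ => exact act4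
  | 5, _ => exact act5
  | m + 6, h => exact absurd h (by omega)


theorem adc_iff (c c' : ℕ) : adc c c' = true ↔ dotInt (ivv c) (ivv c') = 8 := by
  have h1 : dotInt (ivv c) (ivv c') = ∑ n ∈ Finset.range 24, ((tget 4 c n : ℤ) - 8) * ((tget 4 c' n : ℤ) - 8) := by
    rw [← Fin.sum_univ_eq_sum_range (fun n => ((tget 4 c n : ℤ) - 8) * ((tget 4 c' n : ℤ) - 8)) 24]
    unfold dotInt
    rw [← Equiv.sum_comp Golay.ptEquiv]
    apply Finset.sum_congr rfl
    intro i _
    have h2 : Golay.idx (Golay.ptEquiv i) = (i : ℕ) := Golay.idx_pt i.2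
    show ((tget 4 c (Golay.idx (Golay.ptEquiv i)) : ℤ) - 8) * ((tget 4 c' (Golay.idx (Golay.ptEquiv i)) : ℤ) - 8) = _
    rw [h2]
  have h3 : ∑ n ∈ Finset.range 24, ((tget 4 c n : ℤ) - 8) * ((tget 4 c' n : ℤ) - 8) =
      (∑ n ∈ Finset.range 24, (tget 4 c n : ℤ) * (tget 4 c' n : ℤ)) + 1536 -
      8 * ((∑ n ∈ Finset.range 24, (tget 4 c n : ℤ)) + ∑ n ∈ Finset.range 24, (tget 4 c' n : ℤ)) := by
    have e : ∀ n, ((tget 4 c n : ℤ) - 8) * ((tget 4 c' n : ℤ) - 8) = (tget 4 c n : ℤ) * (tget 4 c' n : ℤ) + 64 -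
        (8 * (tget 4 c n : ℤ) + 8 * (tget 4 c' n : ℤ)) := fun n => by ring
    simp only [e, Finset.sum_sub_distrib, Finset.sum_add_distrib, ← Finset.mul_sum, Finset.sum_const, Finset.card_range]
    ring
  rw [h1, h3]
  unfold adc
  rw [Nat.beq_eq, nsm_eq, nsm_eq, nsm_eq]
  have e1 : ((∑ i ∈ Finset.range 24, Nat.mul (tget 4 c i) (tget 4 c' i) : ℕ) : ℤ) =
      ∑ n ∈ Finset.range 24, (tget 4 c n : ℤ) * (tget 4 c' n : ℤ) := by
    rw [Nat.cast_sum]
    exact Finset.sum_congr rfl (fun i _ => Nat.cast_mul _ _)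
  have e2 : ∀ d : ℕ, ((∑ i ∈ Finset.range 24, tget 4 d i : ℕ) : ℤ) = ∑ n ∈ Finset.range 24, (tget 4 d n : ℤ) :=
    fun d => Nat.cast_sum _ _
  rw [← e1, ← e2, ← e2]
  show (∑ i ∈ Finset.range 24, Nat.mul (tget 4 c i) (tget 4 c' i)) + 1536 =
    8 * ((∑ i ∈ Finset.range 24, tget 4 c i) + ∑ i ∈ Finset.range 24, tget 4 c' i) + 8 ↔ _
  omega

theorem exists_MC : ∃ (g : ℕ → S) (ρ : S →* Equiv.Perm (Fin 275)), MC g ρ := by
  obtain ⟨pt, hpt⟩ := exists_pt pts_ok
  obtain ⟨h, hh⟩ := exists_letters (k := 6) stab_of_maps letters_ok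
  have hinj : Function.Injective pt := pt_inj hpt (by norm_num) inc_ok
  have hn : (275 : ℕ) ≤ 2 ^ 9 := by norm_num
  have hval := tfm_valid hn hid gens_ok
  have hfin : Finite S := Nat.finite_of_card_ne_zero (by rw [card_S]; norm_num)
  have hD : ∀ i < 6, (h i, toPerm 9 275 (gt i)) ∈ actD S pt := by
    intro i hi
    have h3 := (nall_iff _ _).1 gens_ok i hi
    simp only [Bool.and_eq_true] at h3
    exact letter_mem hpt h3.1 (hh i hi)
  have hm := fam_mem hn hid gens_ok hD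
  have huniq : ∀ (a : S) (σ τ : Equiv.Perm (Fin 275)), (a, σ) ∈ actD S pt → (a, τ) ∈ actD S pt → σ = τ := by
    intro a σ τ h1 h2
    ext i
    have h3 : a • pt i = pt (σ i) := h1 i
    have h4 : a • pt i = pt (τ i) := h2 i
    rw [hinj (h3.symm.trans h4)]
  have htop : Cl (fam h 6) (2 * 6) = ⊤ := by
    refine top_of_chain hval hm ?_ chain_ok (by rw [card_ok, card_S])
    intro σ hσ
    exact huniq 1 σ 1 hσ (actD S pt).one_mem
  have hall : ∀ a : S, ∃ σ, (a, σ) ∈ actD S pt := by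
    intro a
    have h1 : a ∈ Cl (fam h 6) (2 * 6) := by rw [htop]; exact Subgroup.mem_top a
    have h2 : Cl (fam h 6) (2 * 6) ≤ (actD S pt).map (MonoidHom.fst S (Equiv.Perm (Fin 275))) := by
      unfold Cl
      rw [Subgroup.closure_le]
      rintro _ ⟨x, -, rfl⟩
      exact ⟨_, hm x, rfl⟩
    obtain ⟨⟨b, σ⟩, hb, rfl⟩ := h2 h1
    exact ⟨σ, hb⟩
  choose σ hσ using hall
  let ρ : S →* Equiv.Perm (Fin 275) :=
    { toFun := σ
      map_one' := huniq 1 _ _ (hσ 1) (actD S pt).one_mem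
      map_mul' := fun a b => huniq (a * b) _ _ (hσ (a * b)) ((actD S pt).mul_mem (hσ a) (hσ b)) }
  have hρ : ∀ (a : S) i, a • pt i = pt (ρ a i) := fun a i => hσ a i
  refine ⟨fam h 6, ρ, ?_, ?_, ?_, card_S⟩
  · intro x i
    have h1 : ρ (fam h 6 x) = toPerm 9 275 (tfm gt gi idt 6 x) := huniq _ _ _ (hσ _) (hm x)
    rw [h1, toPerm_apply (hval x)]
    rfl
  · intro a ha
    apply faith hpt
    intro i hi
    rw [hρ, ha i]
    have h1 : ∀ j ∈ fr, j < 22 := by decide
    exact h1 _ hi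
  · intro a i j
    rw [Bool.eq_iff_iff]
    unfold ad
    rw [adc_iff, adc_iff]
    have e : ∀ i : Fin 275, ivv (tget 96 cd i) = (pt i : GolayPt → ℤ) := fun i => (hpt i).symm
    rw [e, e, e, e, ← hρ, ← hρ]
    have h1 := co0_dot (a : Co0) (pt i) (pt j)
    constructor
    · intro h2; rw [← h1]; exact h2
    · intro h2; rw [← h1] at h2; exact h2

end Cfsg.Agent.H89.McLC
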